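import Mathlib
import Cfsg.Agent.Lib.Helper22.Iso.Defs
import Cfsg.Agent.Lib.Helper22.Comp

/-!
# ISO (S3044 + S3045), package PkgSolvLayer: a finite solvable group with `E(X) = X` is
trivial, hence nilpotent.
-/

set_option autoImplicit false

namespace Cfsg.Agent.Lib.Helper67.Iso

open Cfsg.Agent.Lib.Helper22.Iso

universe u

theorem pkgSolvLayer : PkgSolvLayer.{u} := by
  intro X _ _ hs hl
  have hno : ∀ K : Subgroup X, ¬ Cfsg.IsComponent K := by
    intro K hK
    have hst : Group.IsSolvable (⊤ : Subgroup X) := by
      have := hs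
      infer_instance
    exact Cfsg.Agent.Lib.Helper22.IsComponent.not_le_solvable hK hst le_top
  have hbot : Cfsg.layer X = ⊥ := by
    unfold Cfsg.layer
    rw [show {K : Subgroup X | Cfsg.IsComponent K} = ∅ from
      Set.eq_empty_of_forall_notMem (fun K hK => hno K hK)]
    exact sSup_empty
  have htb : (⊥ : Subgroup X) = ⊤ := by rw [← hl, hbot]
  have h1 : Subsingleton (Subgroup X) := subsingleton_of_bot_eq_top htb
  have h2 : Subsingleton X := Subgroup.subsingleton_iff.mp h1
  infer_instance

end Cfsg.Agent.Lib.Helper67.Iso
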